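import Mathlib
import Cfsg.Agent.Phan.Embed
import Cfsg.Agent.SLPres77.Steinberg

/-!
Even permutation matrices in `SU_n` and their action on the coordinate embeddings.

* `altToSU`, `sv_altToSU`;
* `altToSU_conj_emb`: conjugation by `σ` carries `emb f` to `emb (σ ∘ f)`.
-/

set_option autoImplicit false

namespace CfsgLib.SUPres77

open Cfsg CfsgLib.Unitary CfsgLib.Phan
open CfsgLib.FreeGroupLaws (altToSL)

variable {F : Type*} [Field F] {q n k : ℕ}

theorem altToSL_mulVec_comp (σ : alternatingGroup (Fin n)) (u : Fin n → F) :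
    ((altToSL n F σ : Matrix.SpecialLinearGroup (Fin n) F) : Matrix (Fin n) (Fin n) F).mulVec u =
      u ∘ (σ.1⁻¹ : Equiv.Perm (Fin n)) := by
  show (Matrix.permMatrixHom (σ : Equiv.Perm (Fin n))).mulVec u = _
  rw [Matrix.permMatrixHom_apply, Matrix.permMatrix_mulVec]

theorem altToSL_mem (σ : alternatingGroup (Fin n)) : altToSL n F σ ∈ SU n F q := by
  refine mem_SU.2 fun u v => ?_
  rw [altToSL_mulVec_comp, altToSL_mulVec_comp]
  exact Equiv.sum_comp (σ.1⁻¹ : Equiv.Perm (Fin n)) fun i => u i * (v i) ^ q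

/-- Even permutation matrices as elements of `SU_n`. -/
def altToSU (n : ℕ) (F : Type*) [Field F] (q : ℕ) : alternatingGroup (Fin n) →* ↥(SU n F q) :=
  (altToSL n F).codRestrict (SU n F q) altToSL_mem

theorem sv_altToSU (σ : alternatingGroup (Fin n)) (u : Fin n → F) :
    sv (altToSU n F q σ) u = u ∘ (σ.1⁻¹ : Equiv.Perm (Fin n)) :=
  altToSL_mulVec_comp σ u

theorem sv_altToSU_single (σ : alternatingGroup (Fin n)) (i : Fin n) :
    sv (altToSU n F q σ) (Pi.single i 1) = Pi.single (σ.1 i) 1 := by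
  rw [sv_altToSU]
  funext r
  simp [Function.comp_apply, Pi.single_apply, Equiv.eq_symm_apply, Equiv.symm_apply_eq, eq_comm]

variable [Fintype F] (hF : Fintype.card F = q ^ 2)

theorem sv_ext_single {A B : ↥(SU n F q)}
    (h : ∀ i, sv A (Pi.single i 1) = sv B (Pi.single i 1)) : A = B :=
  Subtype.ext (Subtype.ext (Matrix.ext fun r i => by
    simpa [sv, Matrix.mulVec_single] using congrFun (h i) r))

theorem altToSU_conj_emb (σ : alternatingGroup (Fin n)) (f : Fin k ↪ Fin n) (A : ↥(SU k F q)) :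
    altToSU n F q σ * emb hF f A * (altToSU n F q σ)⁻¹ = emb hF (f.trans σ.1.toEmbedding) A := by
  rw [mul_inv_eq_iff_eq_mul]
  refine sv_ext_single fun i => ?_
  have hmul : ∀ (X Y : ↥(SU n F q)) (u : Fin n → F), sv (X * Y) u = sv X (sv Y u) := fun X Y u =>
    (Matrix.mulVec_mulVec u _ _).symm
  rw [hmul, hmul, sv_altToSU_single]
  by_cases hi : ∃ j, f j = i
  · obtain ⟨j, rfl⟩ := hi
    rw [← incl_mulVec_single (F := F) f j, sv_emb_incl,
      show σ.1 (f j) = (f.trans σ.1.toEmbedding) j from rfl,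
      ← incl_mulVec_single (F := F) (f.trans σ.1.toEmbedding) j, sv_emb_incl, sv_altToSU]
    funext r
    by_cases hr : ∃ j', (f.trans σ.1.toEmbedding) j' = r
    · obtain ⟨j', rfl⟩ := hr
      rw [incl_mulVec_apply, Function.comp_apply,
        show (σ.1⁻¹ : Equiv.Perm (Fin n)) ((f.trans σ.1.toEmbedding) j') = f j' from
          Equiv.symm_apply_apply σ.1 (f j'), incl_mulVec_apply]
    · push Not at hr
      rw [incl_mulVec_apply_of_notMem _ _ hr, Function.comp_apply, incl_mulVec_apply_of_notMem]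
      intro j' hj'
      exact hr j' (by simp [hj'])
  · push Not at hi
    rw [sv_emb_single_of_notMem hF f A hi, sv_altToSU_single, sv_emb_single_of_notMem]
    intro j hj
    exact hi j (σ.1.injective hj)

end CfsgLib.SUPres77
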