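import Mathlib
import Cfsg.Agent.SUPres77.Perm
import Cfsg.Agent.Phan.Induct
import Cfsg.Agent.Phan.Small
import Cfsg.Agent.AltPres54.Carmichael

/-!
Gluing a homomorphism on `A_n` and one on `SU_3` to one on `SU_n`.

* `extAlt`: even permutations along an embedding, `emb_altToSU`;
* `Glue`: the relations; `Glue.exists_lift`: they give a homomorphism on `SU_n`, once windows extend;
* `model_surjective`: the two subgroups generate `SU_n`.
-/

set_option autoImplicit false

namespace CfsgLib.SUPres77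

open Cfsg CfsgLib.Unitary CfsgLib.Phan CfsgLib.AltPres54 Equiv
open CfsgLib.SLPres77 (pt pt3 pt_inj pt_ne pt3_inj exists_alt_two)

variable {F : Type*} [Field F] {q n k : ℕ}

/-- Even permutations extended along an embedding. -/
noncomputable def extAlt (g : Fin k ↪ Fin n) : alternatingGroup (Fin k) →* alternatingGroup (Fin n) :=
  ((Perm.viaEmbeddingHom g).comp (alternatingGroup (Fin k)).subtype).codRestrict _ fun a => by
    rw [Perm.mem_alternatingGroup]
    simpa [Perm.viaEmbeddingHom_apply, Perm.viaEmbedding] using (Perm.mem_alternatingGroup.1 a.2)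

theorem extAlt_apply (g : Fin k ↪ Fin n) (a : alternatingGroup (Fin k)) (i : Fin k) :
    (extAlt g a).1 (g i) = g (a.1 i) :=
  Perm.viaEmbedding_apply a.1 g i

theorem extAlt_other (g : Fin k ↪ Fin n) (a : alternatingGroup (Fin k)) {x : Fin n}
    (hx : ∀ i, g i ≠ x) : (extAlt g a).1 x = x :=
  Perm.viaEmbedding_apply_of_notMem a.1 g x (fun ⟨i, hi⟩ => hx i hi)

/-- The three-cycle of `Fin 3`. -/
def cyc3 : alternatingGroup (Fin 3) := ⟨tri 0 1 2, Perm.mem_alternatingGroup.2 (sign_tri (by decide) (by decide))⟩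

theorem eq_pow_cyc3 (a : alternatingGroup (Fin 3)) : ∃ i : Fin 3, a = cyc3 ^ (i : ℕ) := by
  revert a; decide

theorem exists_perm_emb (g : Fin k ↪ Fin n) (f : Fin k ↪ Fin n) :
    ∃ P : Perm (Fin n), ∀ i, P (f i) = g i := by
  classical
  let e : {x // x ∈ Set.range f} ≃ {x // x ∈ Set.range g} :=
    (Equiv.ofInjective f f.injective).symm.trans (Equiv.ofInjective g g.injective)
  refine ⟨e.extendSubtype, fun i => ?_⟩
  rw [Equiv.extendSubtype_apply_of_mem _ _ ⟨i, rfl⟩]
  simp [e, Equiv.ofInjective_symm_apply]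

/-- The first three points, as an embedding. -/
def e3 (hn : 4 ≤ n) : Fin 3 ↪ Fin n := ⟨pt3 hn, pt3_inj hn⟩

theorem w01_e3 (hn : 4 ≤ n) (i : Fin 2) :
    (w01.trans (e3 hn)) i = pt hn (Fin.castLE (show 2 ≤ 4 by norm_num) i) := by
  apply Fin.ext; simp [w01, e3, pt3, pt, Function.Embedding.trans]

/-- The cycles on three consecutive points generate the alternating group. -/
theorem top_of_consecutive (hn : 3 ≤ n) (K : Subgroup (alternatingGroup (Fin n)))
    (h : ∀ b (hb : b + 3 ≤ n), extAlt (win b hb) cyc3 ∈ K) : K = ⊤ := by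
  classical
  let p : ℕ → Fin n := fun i => ⟨min i (n - 1), by omega⟩
  have hp : ∀ i, i < n → (p i).val = i := fun i hi => by simp [p]; omega
  have hne : ∀ i j, i < n → j < n → i ≠ j → p i ≠ p j := fun i j hi hj hij e => hij (by
    rw [← hp i hi, ← hp j hj, e])
  set H := K.map (alternatingGroup (Fin n)).subtype
  have hval : ∀ b (hb : b + 3 ≤ n),
      (extAlt (win b hb) cyc3).1 = tri (p b) (p (b + 1)) (p (b + 2)) := by
    intro b hb
    have h0 : win b hb 0 = p b := Fin.ext (by rw [hp _ (by omega)]; simp)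
    have h1 : win b hb 1 = p (b + 1) := Fin.ext (by rw [hp _ (by omega)]; simp)
    have h2 : win b hb 2 = p (b + 2) := Fin.ext (by rw [hp _ (by omega)]; simp)
    have n01 := hne b (b + 1) (by omega) (by omega) (by omega)
    have n02 := hne b (b + 2) (by omega) (by omega) (by omega)
    have n12 := hne (b + 1) (b + 2) (by omega) (by omega) (by omega)
    refine Equiv.ext fun x => ?_
    by_cases hx : ∃ i, win b hb i = x
    · obtain ⟨i, rfl⟩ := hx
      rw [extAlt_apply]
      fin_cases i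
      · simp only [Fin.zero_eta, h0]; rw [tri_a n01 n02, ← h1]; rfl
      · simp only [Fin.mk_one, h1]; rw [tri_b n12 n02, ← h2]; rfl
      · simp only [Fin.reduceFinMk, h2]; rw [tri_i, ← h0]; rfl
    · push Not at hx
      rw [extAlt_other _ _ hx, tri_other (fun e => hx 0 (h0.trans e.symm))
        (fun e => hx 1 (h1.trans e.symm)) (fun e => hx 2 (h2.trans e.symm))]
  have hc : ∀ b, b + 3 ≤ n → tri (p b) (p (b + 1)) (p (b + 2)) ∈ H := fun b hb =>
    ⟨_, h b hb, hval b hb⟩
  have h01 : ∀ i, 2 ≤ i → i < n → tri (p 0) (p 1) (p i) ∈ H := by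
    intro i hi
    induction i, hi using Nat.le_induction with
    | base => exact fun _ => hc 0 (by omega)
    | succ i hi ih =>
      intro hin
      rcases Nat.eq_or_lt_of_le hi with rfl | hi3
      · -- `(0 1 3)` from `(0 1 2)` and `(1 2 3)`
        have d01 := hne 0 1 (by omega) (by omega) (by omega)
        have d02 := hne 0 2 (by omega) (by omega) (by omega)
        have d03 := hne 0 3 (by omega) (by omega) (by omega)
        have d12 := hne 1 2 (by omega) (by omega) (by omega)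
        have d13 := hne 1 3 (by omega) (by omega) (by omega)
        have d23 := hne 2 3 (by omega) (by omega) (by omega)
        have h0 := hc 0 (by omega)
        have h1 := hc 1 (by omega)
        have e := conj_tri (tri (p 0) (p 1) (p 2) * tri (p 1) (p 2) (p 3)) (p 0) (p 1) (p 2)
        simp only [Perm.mul_apply, tri_other d01 d02 d03, tri_a d12 d13, tri_b d23 d13,
          tri_a d01 d02, tri_i, tri_other d03.symm d13.symm d23.symm] at e
        have hmem := H.mul_mem (H.mul_mem (H.mul_mem h0 h1) h0) (H.inv_mem (H.mul_mem h0 h1))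
        rw [e] at hmem
        have hinv := H.inv_mem hmem
        rw [tri_inv d01.symm d03 d13] at hinv
        exact hinv
      · have hcc := hc (i - 1) (by omega)
        rw [show i - 1 + 1 = i by omega, show i - 1 + 2 = i + 1 by omega] at hcc
        have dd : ∀ j, j < 2 → ∀ l, i - 1 ≤ l → l ≤ i + 1 → p j ≠ p l := fun j hj l hl hl' =>
          hne j l (by omega) (by omega) (by omega)
        have e := conj_tri (tri (p (i - 1)) (p i) (p (i + 1))) (p 0) (p 1) (p i)
        rw [tri_other (dd 0 (by omega) _ le_rfl (by omega)) (dd 0 (by omega) _ (by omega) (by omega))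
            (dd 0 (by omega) _ (by omega) le_rfl),
          tri_other (dd 1 (by omega) _ le_rfl (by omega)) (dd 1 (by omega) _ (by omega) (by omega))
            (dd 1 (by omega) _ (by omega) le_rfl),
          tri_b (hne i (i + 1) (by omega) (by omega) (by omega))
            (hne (i - 1) (i + 1) (by omega) (by omega) (by omega))] at e
        rw [← e]
        exact H.mul_mem (H.mul_mem hcc (ih (by omega))) (H.inv_mem hcc)
  have hle : alternatingGroup (Fin n) ≤ H := by
    rw [← altOn_univ]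
    refine (altOn_le_closure (Finset.mem_univ (p 0)) (Finset.mem_univ (p 1))
      (hne 0 1 (by omega) (by omega) (by omega))).trans ((Subgroup.closure_le H).2 ?_)
    rintro _ ⟨i, -, hi0, hi1, rfl⟩
    have hv : p i.val = i := Fin.ext (hp _ i.isLt)
    have h2 : 2 ≤ i.val := by
      by_contra hlt
      rcases (show i.val = 0 ∨ i.val = 1 by omega) with e | e
      · exact hi0 (by rw [← hv, e])
      · exact hi1 (by rw [← hv, e])
    exact hv ▸ h01 i.val h2 i.isLt
  refine eq_top_iff.2 fun z _ => ?_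
  obtain ⟨w, hw, hwz⟩ := hle z.2
  exact Subtype.ext hwz ▸ hw

variable [Fintype F] (hF : Fintype.card F = q ^ 2)
include hF

theorem emb_altToSU (g : Fin k ↪ Fin n) (a : alternatingGroup (Fin k)) :
    emb hF g (altToSU k F q a) = altToSU n F q (extAlt g a) := by
  refine sv_ext_single fun i => ?_
  rw [sv_altToSU_single]
  by_cases hi : ∃ j, g j = i
  · obtain ⟨j, rfl⟩ := hi
    rw [← incl_mulVec_single (F := F) g j, sv_emb_incl, sv_altToSU_single, incl_mulVec_single,
      extAlt_apply]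
  · push Not at hi
    rw [sv_emb_single_of_notMem hF g _ hi, extAlt_other g a hi]

/-- The windows `e3 ∘ π` conjugated by even permutations are all the windows. -/
theorem exists_conj_window (hn : 4 ≤ n) (g : Fin 3 ↪ Fin n) :
    ∃ (σ : alternatingGroup (Fin n)) (π : Fin 3 ↪ Fin 3),
      (π.trans (e3 hn)).trans σ.1.toEmbedding = g ∧
        ∀ x, altToSU n F q σ * emb hF (e3 hn) (emb hF π x) * (altToSU n F q σ)⁻¹ = emb hF g x := by
  suffices h : ∃ (σ : alternatingGroup (Fin n)) (π : Fin 3 ↪ Fin 3),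
      (π.trans (e3 hn)).trans σ.1.toEmbedding = g by
    obtain ⟨σ, π, h⟩ := h
    exact ⟨σ, π, h, fun x => by rw [emb_trans, altToSU_conj_emb, h]⟩
  obtain ⟨P, hP⟩ := exists_perm_emb g (e3 hn)
  rcases Int.units_eq_one_or (Perm.sign P) with hs | hs
  · exact ⟨⟨P, hs⟩, Function.Embedding.refl _, Function.Embedding.ext fun i => hP i⟩
  · refine ⟨⟨P * swap (pt hn 0) (pt hn 1), by
      rw [Perm.mem_alternatingGroup, map_mul, hs, Perm.sign_swap (pt_ne hn (by decide))]; rfl⟩,
      (swap (0 : Fin 3) 1).toEmbedding, Function.Embedding.ext fun i => ?_⟩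
    have hsw : swap (pt hn 0) (pt hn 1) (e3 hn (swap (0 : Fin 3) 1 i)) = e3 hn i := by
      rw [show pt hn 0 = e3 hn 0 from rfl, show pt hn 1 = e3 hn 1 from rfl,
        (e3 hn).injective.swap_apply, Equiv.swap_apply_self]
    show P (swap _ _ (e3 hn (swap (0 : Fin 3) 1 i))) = g i
    rw [hsw, hP]

/-- The two subgroups generate. -/
theorem model_surjective (hn : 4 ≤ n) :
    (altToSU n F q).range ⊔ (emb hF (e3 hn)).range = (⊤ : Subgroup ↥(SU n F q)) := by
  refine windows_generate hF (by omega) _ fun b hb => ?_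
  rintro _ ⟨x, rfl⟩
  obtain ⟨σ, π, -, hσ⟩ := exists_conj_window hF hn (win b hb)
  rw [← hσ x]
  exact Subgroup.mul_mem _ (Subgroup.mul_mem _ (Subgroup.mem_sup_left ⟨σ, rfl⟩)
    (Subgroup.mem_sup_right ⟨_, rfl⟩)) (Subgroup.inv_mem _ (Subgroup.mem_sup_left ⟨σ, rfl⟩))

/-- The relations between the images of `A_n` and `SU_3`. -/
structure Glue (hn : 4 ≤ n) {G : Type*} [Group G] (rho : alternatingGroup (Fin n) →* G)
    (lam : ↥(SU 3 F q) →* G) : Prop where
  cyc : ∀ a, lam (altToSU 3 F q a) = rho (extAlt (e3 hn) a)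
  cent : ∀ z : alternatingGroup (Fin n), z.1 (pt hn 0) = pt hn 0 → z.1 (pt hn 1) = pt hn 1 →
    ∀ x, Commute (rho z) (lam (emb hF w01 x))
  flip : ∃ e : alternatingGroup (Fin n), e.1 (pt hn 0) = pt hn 1 ∧ e.1 (pt hn 1) = pt hn 0 ∧
    ∀ x, rho e * lam (emb hF w01 x) * (rho e)⁻¹ =
      lam (emb hF w01 (emb hF (swap (0 : Fin 2) 1).toEmbedding x))
  disj : ∃ τ : alternatingGroup (Fin n), τ.1 (pt hn 0) = pt hn 2 ∧ τ.1 (pt hn 1) = pt hn 3 ∧
    ∀ x y, Commute (lam (emb hF w01 x)) (rho τ * lam (emb hF w01 y) * (rho τ)⁻¹)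

namespace Glue

variable {hn : 4 ≤ n} {G : Type*} [Group G] {rho : alternatingGroup (Fin n) →* G}
  {lam : ↥(SU 3 F q) →* G} (D : Glue hF hn rho lam)
include D

theorem conj_eq {σ τ : alternatingGroup (Fin n)} (h0 : σ.1 (pt hn 0) = τ.1 (pt hn 0))
    (h1 : σ.1 (pt hn 1) = τ.1 (pt hn 1)) (x : ↥(SU 2 F q)) :
    rho σ * lam (emb hF w01 x) * (rho σ)⁻¹ = rho τ * lam (emb hF w01 x) * (rho τ)⁻¹ := by
  have h := D.cent (τ⁻¹ * σ) (by simp [Perm.mul_apply, h0]) (by simp [Perm.mul_apply, h1]) x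
  rw [map_mul, map_inv] at h
  calc rho σ * lam (emb hF w01 x) * (rho σ)⁻¹
      = rho τ * ((rho τ)⁻¹ * rho σ * lam (emb hF w01 x)) * (rho σ)⁻¹ := by group
    _ = _ := by rw [h.eq]; group

/-- The copy of `SU_2` on a pair of points. -/
theorem lam_emb (k : Fin 2 ↪ Fin 3) {μ : alternatingGroup (Fin n)}
    (h0 : μ.1 (pt hn 0) = e3 hn (k 0)) (h1 : μ.1 (pt hn 1) = e3 hn (k 1)) (x : ↥(SU 2 F q)) :
    lam (emb hF k x) = rho μ * lam (emb hF w01 x) * (rho μ)⁻¹ := by
  -- `k` is a rotation of the first two points or of their transposition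
  have hk : ∃ a : alternatingGroup (Fin 3),
      (k = w01.trans a.1.toEmbedding) ∨
        (k = ((swap (0 : Fin 2) 1).toEmbedding.trans w01).trans a.1.toEmbedding) := by
    have key : ∀ i j : Fin 3, i ≠ j → ∃ m : Fin 3,
        (((tri (0 : Fin 3) 1 2) ^ (m : ℕ)) 0 = i ∧ ((tri (0 : Fin 3) 1 2) ^ (m : ℕ)) 1 = j) ∨
        (((tri (0 : Fin 3) 1 2) ^ (m : ℕ)) 0 = j ∧ ((tri (0 : Fin 3) 1 2) ^ (m : ℕ)) 1 = i) := by
      decide +kernel
    obtain ⟨m, hm⟩ := key (k 0) (k 1) (k.injective.ne (by decide))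
    have hval : ((cyc3 ^ (m : ℕ) : alternatingGroup (Fin 3)) : Perm (Fin 3)) =
        (tri (0 : Fin 3) 1 2) ^ (m : ℕ) := by
      rw [SubmonoidClass.coe_pow]; rfl
    refine ⟨cyc3 ^ (m : ℕ), hm.imp (fun h => ?_) (fun h => ?_)⟩ <;> rw [hval] <;>
      refine Function.Embedding.ext fun i => ?_ <;> fin_cases i <;>
      first | exact h.1.symm | exact h.2.symm
  have hrot : ∀ (a : alternatingGroup (Fin 3)) (l : Fin 2 ↪ Fin 3) (y : ↥(SU 2 F q)),
      lam (emb hF (l.trans a.1.toEmbedding) y) =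
        rho (extAlt (e3 hn) a) * lam (emb hF l y) * (rho (extAlt (e3 hn) a))⁻¹ := by
    intro a l y
    rw [← altToSU_conj_emb hF, map_mul, map_mul, map_inv, D.cyc]
  have hp : ∀ i : Fin 2, e3 hn (w01 i) = pt hn (Fin.castLE (show 2 ≤ 4 by norm_num) i) := w01_e3 hn
  have hp0 : pt hn 0 = e3 hn (w01 0) := (hp 0).symm
  have hp1 : pt hn 1 = e3 hn (w01 1) := (hp 1).symm
  obtain ⟨a, rfl | rfl⟩ := hk
  · rw [hrot]
    refine D.conj_eq hF ?_ ?_ x
    · rw [h0, hp0, extAlt_apply]; rfl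
    · rw [h1, hp1, extAlt_apply]; rfl
  · obtain ⟨e, he0, he1, he⟩ := D.flip
    rw [hrot, ← emb_trans hF w01, ← he x]
    calc rho (extAlt (e3 hn) a) * (rho e * lam (emb hF w01 x) * (rho e)⁻¹) *
          (rho (extAlt (e3 hn) a))⁻¹
        = rho (extAlt (e3 hn) a * e) * lam (emb hF w01 x) * (rho (extAlt (e3 hn) a * e))⁻¹ := by
          rw [map_mul]; group
      _ = _ := by
          refine D.conj_eq hF ?_ ?_ x
          · rw [Subgroup.coe_mul, Perm.mul_apply, he0, h0, hp1, extAlt_apply]; rfl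
          · rw [Subgroup.coe_mul, Perm.mul_apply, he1, h1, hp0, extAlt_apply]; rfl

/-- Copies of `SU_2` on disjoint pairs commute. -/
theorem commute_disjoint {α β : alternatingGroup (Fin n)}
    (h00 : β.1 (pt hn 0) ≠ α.1 (pt hn 0)) (h01 : β.1 (pt hn 0) ≠ α.1 (pt hn 1))
    (h10 : β.1 (pt hn 1) ≠ α.1 (pt hn 0)) (h11 : β.1 (pt hn 1) ≠ α.1 (pt hn 1))
    (x y : ↥(SU 2 F q)) :
    Commute (rho α * lam (emb hF w01 x) * (rho α)⁻¹) (rho β * lam (emb hF w01 y) * (rho β)⁻¹) := by
  classical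
  obtain ⟨τ, hτ0, hτ1, hτ⟩ := D.disj
  obtain ⟨e, he0, he1, he⟩ := D.flip
  set γ := α⁻¹ * β with hγ
  have hne : ∀ {i j : Fin 4}, β.1 (pt hn i) ≠ α.1 (pt hn j) → γ.1 (pt hn i) ≠ pt hn j :=
    fun {i j} h hh => h (by
      have := congrArg α.1 hh
      simpa [hγ, Perm.mul_apply] using this)
  -- a permutation fixing the first pair moves the second one to `(2, 3)` or to `(3, 2)`
  obtain ⟨P, hP⟩ := exists_perm_emb
    (⟨pt hn, pt_inj hn⟩ : Fin 4 ↪ Fin n)
    ⟨![pt hn 0, pt hn 1, γ.1 (pt hn 0), γ.1 (pt hn 1)], by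
      have := pt_ne hn (show (0 : Fin 4) ≠ 1 by decide)
      have := γ.1.injective.ne (pt_ne hn (show (0 : Fin 4) ≠ 1 by decide))
      have := hne h00; have := hne h01; have := hne h10; have := hne h11
      intro i j hij
      fin_cases i <;> fin_cases j <;> simp_all [Ne.symm]⟩
  have P0 : P (pt hn 0) = pt hn 0 := hP 0
  have P1 : P (pt hn 1) = pt hn 1 := hP 1
  have P2 : P (γ.1 (pt hn 0)) = pt hn 2 := hP 2
  have P3 : P (γ.1 (pt hn 1)) = pt hn 3 := hP 3
  have key : ∀ (z ν : alternatingGroup (Fin n)), z.1 (pt hn 0) = pt hn 0 → z.1 (pt hn 1) = pt hn 1 →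
      z.1 (γ.1 (pt hn 0)) = ν.1 (pt hn 0) → z.1 (γ.1 (pt hn 1)) = ν.1 (pt hn 1) →
      (∀ u v, Commute (lam (emb hF w01 u)) (rho ν * lam (emb hF w01 v) * (rho ν)⁻¹)) →
      Commute (rho α * lam (emb hF w01 x) * (rho α)⁻¹)
        (rho β * lam (emb hF w01 y) * (rho β)⁻¹) := by
    intro z ν z0 z1 zν0 zν1 hν
    have e1 : rho α * lam (emb hF w01 x) * (rho α)⁻¹ =
        rho (α * z⁻¹) * lam (emb hF w01 x) * (rho (α * z⁻¹))⁻¹ := by
      refine D.conj_eq hF ?_ ?_ x
      · rw [Subgroup.coe_mul, Perm.mul_apply, Subgroup.coe_inv, Perm.inv_eq_iff_eq.2 z0.symm]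
      · rw [Subgroup.coe_mul, Perm.mul_apply, Subgroup.coe_inv, Perm.inv_eq_iff_eq.2 z1.symm]
    have e2 : rho β * lam (emb hF w01 y) * (rho β)⁻¹ =
        rho (α * z⁻¹) * (rho ν * lam (emb hF w01 y) * (rho ν)⁻¹) * (rho (α * z⁻¹))⁻¹ := by
      calc rho β * lam (emb hF w01 y) * (rho β)⁻¹
          = rho (α * z⁻¹) * (rho (z * γ) * lam (emb hF w01 y) * (rho (z * γ))⁻¹) *
              (rho (α * z⁻¹))⁻¹ := by simp only [hγ, map_mul, map_inv]; group
        _ = _ := by
          rw [D.conj_eq hF (σ := z * γ) (τ := ν)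
            (by rw [Subgroup.coe_mul, Perm.mul_apply, zν0])
            (by rw [Subgroup.coe_mul, Perm.mul_apply, zν1]) y]
    rw [e1, e2]
    exact (hν x y).map (MulAut.conj (rho (α * z⁻¹))).toMonoidHom
  rcases Int.units_eq_one_or (Perm.sign P) with hs | hs
  · exact key ⟨P, hs⟩ τ P0 P1 (P2.trans hτ0.symm) (P3.trans hτ1.symm) hτ
  · have h02 := pt_ne hn (show (0 : Fin 4) ≠ 2 by decide)
    have h03 := pt_ne hn (show (0 : Fin 4) ≠ 3 by decide)
    have h12 := pt_ne hn (show (1 : Fin 4) ≠ 2 by decide)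
    have h13 := pt_ne hn (show (1 : Fin 4) ≠ 3 by decide)
    refine key ⟨swap (pt hn 2) (pt hn 3) * P, by
      rw [Perm.mem_alternatingGroup, map_mul, hs, Perm.sign_swap (pt_ne hn (by decide))]; rfl⟩
      (τ * e) ?_ ?_ ?_ ?_ fun u v => ?_
    · rw [Perm.mul_apply, P0, swap_apply_of_ne_of_ne h02 h03]
    · rw [Perm.mul_apply, P1, swap_apply_of_ne_of_ne h12 h13]
    · rw [Perm.mul_apply, P2, swap_apply_left, Subgroup.coe_mul, Perm.mul_apply, he0, hτ1]
    · rw [Perm.mul_apply, P3, swap_apply_right, Subgroup.coe_mul, Perm.mul_apply, he1, hτ0]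
    · have := hτ u (emb hF (swap (0 : Fin 2) 1).toEmbedding v)
      rw [← he v] at this
      convert this using 1
      rw [map_mul]; group

/-- A homomorphism on every window. -/
theorem exists_window (g : Fin 3 ↪ Fin n) : ∃ V : ↥(SU 3 F q) →* G,
    (∀ (k : Fin 2 ↪ Fin 3) (μ : alternatingGroup (Fin n)), μ.1 (pt hn 0) = g (k 0) →
      μ.1 (pt hn 1) = g (k 1) → ∀ x, V (emb hF k x) = rho μ * lam (emb hF w01 x) * (rho μ)⁻¹) ∧
    (∀ a, V (altToSU 3 F q a) = rho (extAlt g a)) ∧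
    (g = e3 hn → V = lam) := by
  by_cases hg : g = e3 hn
  · subst hg
    exact ⟨lam, fun k μ => D.lam_emb hF k, D.cyc, fun _ => rfl⟩
  obtain ⟨σ, π, h, -⟩ := exists_conj_window hF hn g
  refine ⟨(MulAut.conj (rho σ)).toMonoidHom.comp (lam.comp (emb hF π)), fun k μ h0 h1 x => ?_,
    fun a => ?_, fun hh => absurd hh hg⟩
  · simp only [MonoidHom.comp_apply, MulEquiv.toMonoidHom_eq_coe, MonoidHom.coe_coe,
      MulAut.conj_apply, emb_trans]
    rw [D.lam_emb hF (k.trans π) (μ := σ⁻¹ * μ)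
      (by rw [Subgroup.coe_mul, Perm.mul_apply, h0, ← h]; simp)
      (by rw [Subgroup.coe_mul, Perm.mul_apply, h1, ← h]; simp), map_mul, map_inv]
    group
  · simp only [MonoidHom.comp_apply, MulEquiv.toMonoidHom_eq_coe, MonoidHom.coe_coe,
      MulAut.conj_apply]
    rw [emb_altToSU, D.cyc, ← map_mul, ← map_inv, ← map_mul]
    congr 1
    refine Subtype.ext (Equiv.ext fun r => ?_)
    have hπ : Function.Surjective π := Finite.injective_iff_surjective.1 π.injective
    simp only [Subgroup.coe_mul, Subgroup.coe_inv, Perm.mul_apply]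
    by_cases hr : ∃ i, g i = r
    · obtain ⟨i, rfl⟩ := hr
      have hgi : ∀ j, g j = σ.1 (e3 hn (π j)) := fun j => by rw [← h]; rfl
      rw [extAlt_apply, hgi i, Perm.inv_def, Equiv.symm_apply_apply, extAlt_apply, extAlt_apply, ← hgi]
    · push Not at hr
      rw [extAlt_other g a hr, extAlt_other (e3 hn) (extAlt π a), Perm.inv_def, Equiv.apply_symm_apply]
      intro i hi
      obtain ⟨j, rfl⟩ := hπ i
      exact hr j (by rw [← h]; simp [hi])

/-- The homomorphism on `SU_n`, given that chains of windows extend. -/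
theorem exists_lift
    (hW : ∀ V : ℕ → ↥(SU 3 F q) →* G,
      (∀ a, a + 4 ≤ n → ∀ u : ↥(SU 2 F q), V a (emb hF (win 1 (show 1 + 2 ≤ 3 by omega)) u)
        = V (a + 1) (emb hF (win 0 (show 0 + 2 ≤ 3 by omega)) u)) →
      (∀ a b, a + 1 ≤ b → b + 3 ≤ n → ∀ x y : ↥(SU 2 F q),
        Commute (V a (emb hF (win 0 (show 0 + 2 ≤ 3 by omega)) x))
          (V b (emb hF (win 1 (show 1 + 2 ≤ 3 by omega)) y))) →
      ∃ f : ↥(SU n F q) →* G, ∀ b (hb : b + 3 ≤ n) (x : ↥(SU 3 F q)),
        f (emb hF (win b hb) x) = V b x) :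
    ∃ Φ : ↥(SU n F q) →* G,
      Φ.comp (altToSU n F q) = rho ∧ Φ.comp (emb hF (e3 hn)) = lam := by
  classical
  choose W hWk hWa hW0 using D.exists_window hF
  let V : ℕ → ↥(SU 3 F q) →* G := fun b => if hb : b + 3 ≤ n then W (win b hb) else 1
  have hV : ∀ b (hb : b + 3 ≤ n), V b = W (win b hb) := fun b hb => dif_pos hb
  have hμ : ∀ {i j : Fin n}, i ≠ j → ∃ μ : alternatingGroup (Fin n),
      μ.1 (pt hn 0) = i ∧ μ.1 (pt hn 1) = j := fun h => exists_alt_two hn h
  obtain ⟨f, hf⟩ := hW V (fun a ha u => by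
    rw [hV a (by omega), hV (a + 1) (by omega)]
    obtain ⟨μ, h0, h1⟩ := hμ (i := (⟨a + 1, by omega⟩ : Fin n)) (j := ⟨a + 2, by omega⟩)
      (by simp [Fin.ext_iff])
    rw [hWk _ _ μ (h0.trans (Fin.ext (by simp))) (h1.trans (Fin.ext (by simp))),
      hWk _ _ μ (h0.trans (Fin.ext (by simp))) (h1.trans (Fin.ext (by simp)))])
    (fun a b hab hb x y => by
    rw [hV a (by omega), hV b hb]
    obtain ⟨μ, h0, h1⟩ := hμ (i := (⟨a, by omega⟩ : Fin n)) (j := ⟨a + 1, by omega⟩)
      (by simp [Fin.ext_iff])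
    obtain ⟨ν, g0, g1⟩ := hμ (i := (⟨b + 1, by omega⟩ : Fin n)) (j := ⟨b + 2, by omega⟩)
      (by simp [Fin.ext_iff])
    rw [hWk _ _ μ (h0.trans (Fin.ext (by simp))) (h1.trans (Fin.ext (by simp))),
      hWk _ _ ν (g0.trans (Fin.ext (by simp))) (g1.trans (Fin.ext (by simp)))]
    refine D.commute_disjoint hF ?_ ?_ ?_ ?_ x y <;>
      simp only [h0, h1, g0, g1, ne_eq, Fin.ext_iff] <;> omega)
  have hwin0 : win 0 (show 0 + 3 ≤ n by omega) = e3 hn := by
    ext i; simp [e3, pt3, pt]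
  refine ⟨f, ?_, ?_⟩
  · -- `A_n` is generated by the cycles on three consecutive points
    let K : Subgroup (alternatingGroup (Fin n)) := (f.comp (altToSU n F q)).eqLocus rho
    have hcyc : ∀ b (hb : b + 3 ≤ n), extAlt (win b hb) cyc3 ∈ K := fun b hb => by
      show f (altToSU n F q _) = _
      rw [← emb_altToSU hF, hf b hb, hV b hb, hWa]
    have hK : K = ⊤ := top_of_consecutive (by omega) K hcyc
    exact MonoidHom.ext fun z => (hK ▸ Subgroup.mem_top z : z ∈ K)
  · refine MonoidHom.ext fun x => ?_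
    rw [MonoidHom.comp_apply, ← hwin0, hf 0 (by omega), hV 0 (by omega), hW0 _ hwin0]

end Glue

end CfsgLib.SUPres77
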